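import Cfsg.Agent.Coprime.Generation
import Cfsg.Agent.Coprime.Glauberman
import Cfsg.Agent.Constrained.Basic
import Mathlib.GroupTheory.PGroup
import Mathlib.Tactic.Group

/-!
A four-group-like operator group `⟨x₁, x₂⟩` of exponent `q` on a `p`-group, only the lines through
`x₁` and `x₂` having fixed points: the two centralizers commute.
-/

set_option autoImplicit false

open scoped commutatorElement

namespace CfsgLib.CoprimeLines

universe u

/-- The hypotheses. -/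
structure TwoLines {X : Type u} [Group X] (p q : ℕ) (P A : Subgroup X) (x₁ x₂ : X) : Prop where
  normal : P.Normal
  pgroup : IsPGroup p P
  comm : IsMulCommutative A
  qgroup : IsPGroup q A
  mem₁ : x₁ ∈ A
  mem₂ : x₂ ∈ A
  pow₁ : x₁ ^ q = 1
  pow₂ : x₂ ^ q = 1
  free : ∀ i : ℕ, ¬ q ∣ i → ∀ g ∈ P, Commute (x₁ * x₂ ^ i) g → g = 1

namespace TwoLines

variable {X : Type u} [Group X] [Finite X] {p q : ℕ} [Fact p.Prime] [Fact q.Prime]
  {P A : Subgroup X} {x₁ x₂ : X}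

theorem commute₁₂ (h : TwoLines p q P A x₁ x₂) : Commute x₁ x₂ :=
  congrArg Subtype.val (h.comm.is_comm.comm ⟨x₁, h.mem₁⟩ ⟨x₂, h.mem₂⟩)

theorem symm (h : TwoLines p q P A x₁ x₂) : TwoLines p q P A x₂ x₁ := by
  refine ⟨h.normal, h.pgroup, h.comm, h.qgroup, h.mem₂, h.mem₁, h.pow₂, h.pow₁, fun i hi g hg hc => ?_⟩
  have hcop : i.Coprime q := ((Nat.Prime.coprime_iff_not_dvd Fact.out).mpr hi).symm
  obtain ⟨j, hj⟩ := CfsgLib.Coprime.exists_mul_modEq_one hcop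
  have hjq : ¬ q ∣ j := fun hd => by
    have h1 : (0 : ℕ) ≡ 1 [MOD q] :=
      ((Nat.modEq_zero_iff_dvd.mpr (dvd_mul_of_dvd_left hd i)).symm).trans hj
    exact (Fact.out : q.Prime).ne_one (Nat.dvd_one.mp ((Nat.modEq_iff_dvd' (Nat.zero_le 1)).mp h1))
  refine h.free j hjq g hg ?_
  have hpow := hc.pow_left j
  rw [(h.commute₁₂.symm.pow_right i).mul_pow, ← pow_mul, mul_comm i,
    pow_eq_pow_of_modEq hj h.pow₁, pow_one, ← (h.commute₁₂.pow_right j).eq] at hpow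
  exact hpow

/-- Both fixed: trivial. -/
theorem eq_one_of_fixed (h : TwoLines p q P A x₁ x₂) {g : X} (hg : g ∈ P) (h1 : Commute x₁ g)
    (h2 : Commute x₂ g) : g = 1 :=
  h.free 1 (Nat.Prime.not_dvd_one Fact.out) g hg (by rw [pow_one]; exact h1.mul_left h2)

theorem coprime (h : TwoLines p q P A x₁ x₂) (hpq : p ≠ q) {G : Subgroup X} (hG : G ≤ P) :
    (Nat.card A).Coprime (Nat.card G) ∧ ¬ q ∣ Nat.card G := by
  obtain ⟨m, hm⟩ := IsPGroup.iff_card.mp h.qgroup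
  obtain ⟨n, hn⟩ := IsPGroup.iff_card.mp (h.pgroup.to_le hG)
  have hc := (Nat.coprime_primes (Fact.out : q.Prime) (Fact.out : p.Prime)).mpr hpq.symm
  rw [hm, hn]
  exact ⟨(hc.pow_left m).pow_right n, (Nat.Prime.coprime_iff_not_dvd Fact.out).mp (hc.pow_right n)⟩

/-- An invariant subgroup is generated by its two centralizers. -/
theorem generated (h : TwoLines p q P A x₁ x₂) (hpq : p ≠ q) {G : Subgroup X} (hG : G ≤ P)
    (hAG : A ≤ Subgroup.normalizer (G : Set X)) :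
    G ≤ (G ⊓ Subgroup.centralizer ({x₁} : Set X)) ⊔ (G ⊓ Subgroup.centralizer ({x₂} : Set X)) := by
  obtain ⟨hcop, hq⟩ := h.coprime hpq hG
  refine CfsgLib.Coprime.le_of_lines h.comm h.mem₁ h.mem₂ hAG hcop hq (by rw [h.pow₁]; exact one_mem _)
    (by rw [h.pow₂]; exact one_mem _) (fun i => ?_) le_sup_right
  by_cases hi : q ∣ i
  · obtain ⟨k, rfl⟩ := hi
    rw [pow_mul, h.pow₂, one_pow, mul_one]
    exact le_sup_left
  · intro g hg
    obtain ⟨hg1, hg2⟩ := Subgroup.mem_inf.mp hg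
    rw [h.free i hi g (hG hg1) (Subgroup.mem_centralizer_singleton_iff.mp hg2).symm]
    exact one_mem _

/-- The hypotheses pass to the quotient by the centre. -/
theorem quotient (h : TwoLines p q P A x₁ x₂) (Z : Subgroup X) [Z.Normal] (hZ : Z ≤ P) :
    TwoLines p q (P.map (QuotientGroup.mk' Z)) (A.map (QuotientGroup.mk' Z))
      (QuotientGroup.mk' Z x₁) (QuotientGroup.mk' Z x₂) := by
  set π := QuotientGroup.mk' Z
  haveI := h.normal
  refine ⟨Subgroup.Normal.map inferInstance π (QuotientGroup.mk'_surjective Z), h.pgroup.map π, ?_,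
    h.qgroup.map π, Subgroup.mem_map_of_mem π h.mem₁, Subgroup.mem_map_of_mem π h.mem₂,
    by rw [← map_pow, h.pow₁, map_one], by rw [← map_pow, h.pow₂, map_one], ?_⟩
  · haveI := h.comm
    infer_instance
  rintro i hi _ ⟨g, hg, rfl⟩ hc
  set x := x₁ * x₂ ^ i with hx
  have hzmem : g⁻¹ * (x * g * x⁻¹) ∈ Z := by
    refine (QuotientGroup.eq_one_iff _).mp ?_
    show π (g⁻¹ * (x * g * x⁻¹)) = 1
    rw [← map_pow, ← map_mul, ← hx] at hc
    rw [map_mul, map_mul, map_mul, map_inv, map_inv, hc.eq, mul_inv_cancel_right, inv_mul_cancel]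
  let d : Z → Z := fun w => ⟨(w : X) * (x * w * x⁻¹)⁻¹,
    mul_mem w.2 (inv_mem ((inferInstance : Z.Normal).conj_mem _ w.2 x))⟩
  have hd : Function.Injective d := by
    intro a b hab
    have hab' : (a : X) * (x * a * x⁻¹)⁻¹ = b * (x * b * x⁻¹)⁻¹ := congrArg Subtype.val hab
    have h1 := h.free i hi ((b : X)⁻¹ * a) (hZ (mul_mem (inv_mem b.2) a.2)) (by
      show x * ((b : X)⁻¹ * a) = (b : X)⁻¹ * a * x
      calc x * ((b : X)⁻¹ * a) = x * (b : X)⁻¹ * x⁻¹ * ((a : X) * (x * a * x⁻¹)⁻¹)⁻¹ * a * x := by group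
        _ = x * (b : X)⁻¹ * x⁻¹ * ((b : X) * (x * b * x⁻¹)⁻¹)⁻¹ * a * x := by rw [hab']
        _ = _ := by group)
    exact (Subtype.ext (inv_mul_eq_one.mp h1)).symm
  obtain ⟨w, hw⟩ := (Finite.injective_iff_surjective.mp hd) ⟨_, hzmem⟩
  have hw' : (w : X) * (x * w * x⁻¹)⁻¹ = g⁻¹ * (x * g * x⁻¹) := congrArg Subtype.val hw
  have hfix : g * (w : X) = 1 := h.free i hi _ (mul_mem hg (hZ w.2)) (by
    show x * (g * w) = g * w * x
    calc x * (g * w) = g * (g⁻¹ * (x * g * x⁻¹)) * (x * w * x⁻¹) * x := by group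
      _ = g * ((w : X) * (x * w * x⁻¹)⁻¹) * (x * w * x⁻¹) * x := by rw [hw']
      _ = _ := by group)
  refine (QuotientGroup.eq_one_iff _).mpr ?_
  rw [eq_inv_of_mul_eq_one_left hfix]
  exact inv_mem w.2

/-- The key step: a central commutator lies in the second centralizer. -/
theorem commutator_fixed (h : TwoLines p q P A x₁ x₂) (hpq : p ≠ q) (Z : Subgroup X) [Z.Normal]
    (hZ : Z ≤ P) (hZc : ∀ z ∈ Z, ∀ g ∈ P, z * g = g * z)
    (hcom : ∀ a ∈ P, Commute x₁ a → ∀ b ∈ P, Commute x₂ b → ⁅a, b⁆ ∈ Z)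
    {a b : X} (ha : a ∈ P) (hax : Commute x₁ a) (hb : b ∈ P) (hbx : Commute x₂ b) :
    Commute x₂ ⁅a, b⁆ := by
  haveI := h.normal
  have hx12 := h.commute₁₂
  have hconj : ∀ w, Commute x₂ w → Commute x₂ (x₁ * w * x₁⁻¹) := fun w hw =>
    (hx12.symm.mul_right hw).mul_right hx12.symm.inv_right
  let T : Subgroup X := P ⊓ Subgroup.centralizer {x₂}
  have hT : ∀ {w : X}, w ∈ T ↔ w ∈ P ∧ Commute x₂ w := fun {w} => by
    rw [Subgroup.mem_inf, Subgroup.mem_centralizer_singleton_iff]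
    exact and_congr_right fun _ => eq_comm
  let δ : T → T := fun d => ⟨(d : X)⁻¹ * (x₁ * d * x₁⁻¹), hT.mpr
    ⟨mul_mem (inv_mem (hT.mp d.2).1) (h.normal.conj_mem _ (hT.mp d.2).1 x₁),
      (hT.mp d.2).2.inv_right.mul_right (hconj _ (hT.mp d.2).2)⟩⟩
  have hδ : Function.Injective δ := by
    intro d e hde
    have hde' : (d : X)⁻¹ * (x₁ * d * x₁⁻¹) = (e : X)⁻¹ * (x₁ * e * x₁⁻¹) := congrArg Subtype.val hde
    have h1 := h.eq_one_of_fixed (mul_mem (hT.mp e.2).1 (inv_mem (hT.mp d.2).1)) (by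
      show x₁ * ((e : X) * (d : X)⁻¹) = (e : X) * (d : X)⁻¹ * x₁
      calc x₁ * ((e : X) * (d : X)⁻¹)
          = (e : X) * ((e : X)⁻¹ * (x₁ * e * x₁⁻¹)) * (x₁ * (d : X)⁻¹ * x₁⁻¹) * x₁ := by group
        _ = (e : X) * ((d : X)⁻¹ * (x₁ * d * x₁⁻¹)) * (x₁ * (d : X)⁻¹ * x₁⁻¹) * x₁ := by rw [hde']
        _ = _ := by group) ((hT.mp e.2).2.mul_right (hT.mp d.2).2.inv_right)
    exact (Subtype.ext (mul_inv_eq_one.mp h1)).symm
  obtain ⟨d, hd⟩ := (Finite.injective_iff_surjective.mp hδ) ⟨b, hT.mpr ⟨hb, hbx⟩⟩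
  have hd' : (d : X)⁻¹ * (x₁ * d * x₁⁻¹) = b := congrArg Subtype.val hd
  obtain ⟨hdP, hdx⟩ := hT.mp d.2
  have hAn : A ≤ Subgroup.normalizer (Z : Set X) := by
    rw [Subgroup.normalizer_eq_top]; exact le_top
  have hgen := h.generated hpq hZ hAn (hcom a ha hax d hdP hdx)
  have hnorm : Z ⊓ Subgroup.centralizer ({x₂} : Set X) ≤
      Subgroup.normalizer ((Z ⊓ Subgroup.centralizer ({x₁} : Set X) : Subgroup X) : Set X) := by
    intro v hv
    rw [Subgroup.mem_normalizer_iff]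
    intro w
    have key : ∀ v' ∈ Z, ∀ w' ∈ Z ⊓ Subgroup.centralizer ({x₁} : Set X),
        v' * w' * v'⁻¹ ∈ Z ⊓ Subgroup.centralizer ({x₁} : Set X) := by
      intro v' hv' w' hw'
      rw [hZc v' hv' w' (hZ hw'.1), mul_inv_cancel_right]
      exact hw'
    refine ⟨fun hw => key v hv.1 w hw, fun hw => ?_⟩
    have h1 := key v⁻¹ (inv_mem hv.1) _ hw
    rwa [show v⁻¹ * (v * w * v⁻¹) * v⁻¹⁻¹ = w by group] at h1
  rw [← SetLike.mem_coe, Subgroup.coe_mul_of_right_le_normalizer_left _ _ hnorm] at hgen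
  obtain ⟨w1, hw1, w2, hw2, hw : w1 * w2 = ⁅a, (d : X)⁆⟩ := hgen
  obtain ⟨hw1Z, hw1x⟩ := Subgroup.mem_inf.mp hw1
  obtain ⟨hw2Z, hw2x⟩ := Subgroup.mem_inf.mp hw2
  have hw1x' : x₁ * w1 * x₁⁻¹ = w1 := by
    rw [← Subgroup.mem_centralizer_singleton_iff.mp hw1x, mul_inv_cancel_right]
  have haconj : x₁ * a * x₁⁻¹ = a := by rw [hax.eq, mul_inv_cancel_right]
  have hc : ⁅a, b⁆ = w2⁻¹ * (x₁ * w2 * x₁⁻¹) := by
    have hdinv : (d : X)⁻¹ ∈ P := inv_mem hdP
    have e1 : ⁅a, (d : X)⁻¹⁆ = (w1 * w2)⁻¹ := by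
      rw [show ⁅a, (d : X)⁻¹⁆ = (d : X)⁻¹ * (⁅a, (d : X)⁆⁻¹ * (d : X)) by
        simp only [commutatorElement_def]; group, ← hw,
        hZc _ (inv_mem (mul_mem hw1Z hw2Z)) _ hdP, inv_mul_cancel_left]
    have e2 : ⁅a, x₁ * d * x₁⁻¹⁆ = w1 * (x₁ * w2 * x₁⁻¹) := by
      nth_rewrite 1 [← haconj]
      rw [show ⁅x₁ * a * x₁⁻¹, x₁ * (d : X) * x₁⁻¹⁆ = x₁ * ⁅a, (d : X)⁆ * x₁⁻¹ by
        simp only [commutatorElement_def]; group, ← hw]
      nth_rewrite 2 [← hw1x']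
      group
    rw [← hd', show ⁅a, (d : X)⁻¹ * (x₁ * d * x₁⁻¹)⁆ =
        ⁅a, (d : X)⁻¹⁆ * ((d : X)⁻¹ * ⁅a, x₁ * d * x₁⁻¹⁆ * (d : X)⁻¹⁻¹) by
      simp only [commutatorElement_def]; group, e1, e2,
      ← hZc _ (mul_mem hw1Z ((inferInstance : Z.Normal).conj_mem w2 hw2Z x₁)) _ hdinv, mul_inv_cancel_right]
    group
  rw [hc]
  have hw2c : Commute x₂ w2 := (Subgroup.mem_centralizer_singleton_iff.mp hw2x).symm
  exact hw2c.inv_right.mul_right (hconj _ hw2c)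

end TwoLines

theorem commute_centralizers_aux : ∀ (n : ℕ) {X : Type u} [Group X] [Finite X] {p q : ℕ}
    [Fact p.Prime] [Fact q.Prime] {P A : Subgroup X} {x₁ x₂ : X}, TwoLines p q P A x₁ x₂ → p ≠ q →
    Nat.card P ≤ n → ∀ a ∈ P, Commute x₁ a → ∀ b ∈ P, Commute x₂ b → ⁅a, b⁆ = 1 := by
  intro n
  induction n with
  | zero =>
    intro X _ _ p q _ _ P A x₁ x₂ h hpq hn
    exact absurd hn (Nat.not_le.mpr Nat.card_pos)
  | succ n ih =>
    intro X _ _ p q _ _ P A x₁ x₂ h hpq hn a ha hax b hb hbx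
    by_cases hP : P = ⊥
    · rw [hP, Subgroup.mem_bot] at ha
      rw [ha, commutatorElement_one_left]
    haveI := h.normal
    set Z := (Subgroup.center P).map P.subtype with hZdef
    haveI : Z.Normal := inferInstance
    have hZ : Z ≤ P := Subgroup.map_subtype_le _
    have hZc : ∀ z ∈ Z, ∀ g ∈ P, z * g = g * z := by
      rintro _ ⟨z, hz, rfl⟩ g hg
      exact (congrArg Subtype.val (Subgroup.mem_center_iff.mp hz ⟨g, hg⟩)).symm
    have hZne : Z ≠ ⊥ := by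
      haveI : Nontrivial P := (Subgroup.nontrivial_iff_ne_bot P).mpr hP
      haveI := h.pgroup.center_nontrivial
      rw [hZdef, Ne, Subgroup.map_eq_bot_iff_of_injective _ P.subtype_injective]
      exact (Subgroup.nontrivial_iff_ne_bot _).mp inferInstance
    let π := QuotientGroup.mk' Z
    have hlt : Nat.card (P.map π) ≤ n := by
      rw [← CfsgLib.Constrained.relIndex_eq_card_map]
      have h1 := Subgroup.relIndex_mul_relIndex (⊥ : Subgroup X) Z P bot_le hZ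
      rw [Subgroup.relIndex_bot_left, Subgroup.relIndex_bot_left] at h1
      have h2 := Subgroup.one_lt_card_iff_ne_bot Z |>.mpr hZne
      have h3 : 0 < Z.relIndex P := Nat.pos_of_ne_zero Subgroup.index_ne_zero_of_finite
      nlinarith
    have hcom : ∀ a ∈ P, Commute x₁ a → ∀ b ∈ P, Commute x₂ b → ⁅a, b⁆ ∈ Z := by
      intro a ha hax b hb hbx
      refine (QuotientGroup.eq_one_iff _).mp ?_
      show π ⁅a, b⁆ = 1
      rw [map_commutatorElement]
      exact ih (h.quotient Z hZ) hpq hlt _ (Subgroup.mem_map_of_mem π ha) (hax.map π)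
        _ (Subgroup.mem_map_of_mem π hb) (hbx.map π)
    have h2 := h.commutator_fixed hpq Z hZ hZc hcom ha hax hb hbx
    have h1 := h.symm.commutator_fixed hpq Z hZ hZc
      (fun c hc hcx d hd hdx => by
        rw [← commutatorElement_inv]; exact inv_mem (hcom d hd hdx c hc hcx)) hb hbx ha hax
    rw [← commutatorElement_inv, Commute.inv_right_iff] at h1
    exact h.eq_one_of_fixed (hZ (hcom a ha hax b hb hbx)) h1 h2

end CfsgLib.CoprimeLines

namespace CfsgLib.CoprimeLines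

variable {X : Type*} [Group X] [Finite X] {q : ℕ} [hq : Fact q.Prime]

theorem exists_gen {L : Subgroup X} (hL : Nat.card L = q) :
    ∃ x ∈ L, x ≠ 1 ∧ x ^ q = 1 ∧ Subgroup.zpowers x = L := by
  obtain ⟨x, hx⟩ : ∃ x : L, x ≠ 1 := by
    haveI : Nontrivial L := Finite.one_lt_card_iff_nontrivial.mp (hL ▸ hq.out.one_lt)
    exact exists_ne 1
  have hxq : x ^ q = 1 := hL ▸ pow_card_eq_one'
  refine ⟨x, x.2, fun e => hx (Subtype.ext e), congrArg Subtype.val hxq, ?_⟩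
  refine Subgroup.eq_of_le_of_card_ge (Subgroup.zpowers_le.mpr x.2) ?_
  rw [hL, Nat.card_zpowers, orderOf_eq_prime (congrArg Subtype.val hxq) (fun e => hx (Subtype.ext e))]

theorem main {p : ℕ} [Fact p.Prime] (hpq : p ≠ q) (P : Subgroup X) (hPn : P.Normal) (hP : IsPGroup p P)
    (Q : Subgroup X) (hQc : IsMulCommutative Q) (hQq : ∀ a ∈ Q, a ^ q = 1)
    (L₁ L₂ : Subgroup X) (h₁ : L₁ ≤ Q) (h₂ : L₂ ≤ Q) (h₁₂ : L₁ ≠ L₂) (hc₁ : Nat.card L₁ = q)
    (hc₂ : Nat.card L₂ = q)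
    (honly : ∀ L : Subgroup X, L ≤ Q → Nat.card L = q →
      P ⊓ Subgroup.centralizer (L : Set X) ≠ ⊥ → L = L₁ ∨ L = L₂) :
    ⁅P ⊓ Subgroup.centralizer (L₁ : Set X), P ⊓ Subgroup.centralizer (L₂ : Set X)⁆ = ⊥ ∧
      (P ⊓ Subgroup.centralizer (L₁ : Set X)) ⊓ (P ⊓ Subgroup.centralizer (L₂ : Set X)) = ⊥ ∧
      (P ⊓ Subgroup.centralizer (L₁ : Set X)) ⊔ (P ⊓ Subgroup.centralizer (L₂ : Set X)) = P := by
  obtain ⟨x₁, hx₁, hne₁, hq₁, hz₁⟩ := exists_gen hc₁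
  obtain ⟨x₂, hx₂, hne₂, hq₂, hz₂⟩ := exists_gen hc₂
  have hnot : x₁ ∉ L₂ := fun h => h₁₂ (Subgroup.eq_of_le_of_card_ge
    (hz₁ ▸ Subgroup.zpowers_le.mpr h) (by rw [hc₁, hc₂]))
  have hnot' : x₂ ∉ L₁ := fun h => h₁₂ (Subgroup.eq_of_le_of_card_ge
    (hz₂ ▸ Subgroup.zpowers_le.mpr h) (by rw [hc₁, hc₂])).symm
  have h : TwoLines p q P Q x₁ x₂ := by
    refine ⟨hPn, hP, hQc, fun a => ⟨1, Subtype.ext (by simpa using hQq a a.2)⟩, h₁ hx₁, h₂ hx₂, hq₁, hq₂,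
      fun i hi g hg hc => ?_⟩
    by_contra hg1
    set y := x₁ * x₂ ^ i with hy
    have hyQ : y ∈ Q := mul_mem (h₁ hx₁) (pow_mem (h₂ hx₂) i)
    have hy1 : y ∉ L₁ := fun hy' => by
      have h1 : x₂ ^ i ∈ L₁ := by simpa [hy] using mul_mem (inv_mem hx₁) hy'
      obtain ⟨j, hj⟩ := CfsgLib.Coprime.exists_mul_modEq_one
        (((Nat.Prime.coprime_iff_not_dvd hq.out).mpr hi).symm)
      have h2 := pow_mem h1 j
      rw [← pow_mul, mul_comm, pow_eq_pow_of_modEq hj hq₂, pow_one] at h2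
      exact hnot' h2
    have hy2 : y ∉ L₂ := fun hy' => hnot (by simpa [hy] using mul_mem hy' (inv_mem (pow_mem hx₂ i)))
    have hyne : y ≠ 1 := fun e => hy1 (e ▸ one_mem _)
    have hne : P ⊓ Subgroup.centralizer (Subgroup.zpowers y : Set X) ≠ ⊥ := fun hb => by
      have : g ∈ P ⊓ Subgroup.centralizer (Subgroup.zpowers y : Set X) := Subgroup.mem_inf.mpr ⟨hg, by
        rw [Subgroup.mem_centralizer_iff]
        rintro _ ⟨k, rfl⟩
        exact (hc.zpow_left k).eq⟩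
      rw [hb, Subgroup.mem_bot] at this
      exact hg1 this
    rcases honly _ (Subgroup.zpowers_le.mpr hyQ)
      (by rw [Nat.card_zpowers, orderOf_eq_prime (hQq y hyQ) hyne]) hne with e | e
    · exact hy1 (e ▸ Subgroup.mem_zpowers y)
    · exact hy2 (e ▸ Subgroup.mem_zpowers y)
  have hC : ∀ {L : Subgroup X} {x : X}, Subgroup.zpowers x = L →
      Subgroup.centralizer (L : Set X) = Subgroup.centralizer ({x} : Set X) := by
    rintro L x rfl
    rw [Subgroup.zpowers_eq_closure, Subgroup.centralizer_closure]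
  rw [hC hz₁, hC hz₂]
  refine ⟨?_, ?_, le_antisymm (sup_le inf_le_left inf_le_left) ?_⟩
  · rw [← le_bot_iff, Subgroup.commutator_le]
    rintro a ⟨ha, hax⟩ b ⟨hb, hbx⟩
    exact Subgroup.mem_bot.mpr (commute_centralizers_aux _ h hpq le_rfl a ha
      (Subgroup.mem_centralizer_singleton_iff.mp hax).symm b hb
      (Subgroup.mem_centralizer_singleton_iff.mp hbx).symm)
  · rw [eq_bot_iff]
    rintro g ⟨⟨hg, hg1⟩, -, hg2⟩
    exact Subgroup.mem_bot.mpr (h.eq_one_of_fixed hg (Subgroup.mem_centralizer_singleton_iff.mp hg1).symm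
      (Subgroup.mem_centralizer_singleton_iff.mp hg2).symm)
  · refine h.generated hpq le_rfl ?_
    rw [Subgroup.normalizer_eq_top]; exact le_top

end CfsgLib.CoprimeLines
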